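import Cfsg.Agent.H39.SmithTyrer.Defs
import Cfsg.Agent.H22.Fusion
import Cfsg.Agent.H22.AbelianSylow
import Cfsg.Agent.H22.PResidual
import Cfsg.Agent.H19.Cores
import Cfsg.Agent.H23.PPrimeQuotient
import Cfsg.Agent.H53.Cores
import Mathlib

/-!
# Abelian Sylow subgroups of inertial index two: reduction to a simple group

If a finite group has an abelian noncyclic Sylow `p`-subgroup `P`, `p` odd, with
`|N(P) : C(P)| = 2`, then either `O^p(G) < G`, or `P` is inverted by an element and fusion in `P`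
is inversion only; in the latter case, modulo `O_{p'}(G)`, either `P` is normal or a minimal
normal subgroup is a simple group of the same kind.
-/

set_option autoImplicit false

open Subgroup

namespace Cfsg.Agent.H40.SmithTyrer

universe u

variable {G : Type u} [Group G]

/-- `P` is abelian, inverted by some element, and fused only by inversion. -/
structure Pre (P : Subgroup G) : Prop where
  comm : ∀ a ∈ P, ∀ b ∈ P, a * b = b * a
  inverter : ∃ t : G, ∀ x ∈ P, t * x * t⁻¹ = x⁻¹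
  fus : ∀ x ∈ P, ∀ g : G, g * x * g⁻¹ ∈ P → g * x * g⁻¹ = x ∨ g * x * g⁻¹ = x⁻¹

variable [Finite G] {p : ℕ} [Fact p.Prime]

omit [Finite G] in
/-- A `p`-group of odd order has no involution. -/
theorem eq_one_of_mul_self (hp : p ≠ 2) {P : Subgroup G} (hP : IsPGroup p P) {x : G}
    (hx : x ∈ P) (h : x * x = 1) : x = 1 := by
  obtain ⟨k, hk⟩ := hP ⟨x, hx⟩
  have hk' : x ^ p ^ k = 1 := by simpa [Subtype.ext_iff] using hk
  have h2 : x ^ 2 = 1 := by rw [pow_two, h]
  have hc : (p ^ k).Coprime 2 :=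
    Nat.Coprime.pow_left k ((Nat.coprime_primes Fact.out Nat.prime_two).2 hp)
  rw [← orderOf_eq_one_iff]
  exact Nat.eq_one_of_dvd_coprimes hc (orderOf_dvd_of_pow_eq_one hk') (orderOf_dvd_of_pow_eq_one h2)

omit [Finite G] in
/-- In a `p`-group of odd order every element is a power of its square. -/
theorem mem_of_mul_self_mem (hp : p ≠ 2) {P : Subgroup G} (hP : IsPGroup p P) {N : Subgroup G}
    {x : G} (hx : x ∈ P) (h : x * x ∈ N) : x ∈ N := by
  obtain ⟨k, hk⟩ := hP ⟨x, hx⟩
  have hk' : x ^ p ^ k = 1 := by simpa [Subtype.ext_iff] using hk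
  obtain ⟨j, hj⟩ : Odd (p ^ k) := ((Fact.out : p.Prime).odd_of_ne_two hp).pow
  have e : x = (x * x) ^ (j + 1) := by
    rw [← pow_two, ← pow_mul, show 2 * (j + 1) = p ^ k + 1 by omega, pow_succ, hk', one_mul]
  rw [e]
  exact pow_mem h _

omit [Finite G] in
/-- An element normalising `P` and fixing a nontrivial element centralises `P`. -/
theorem Pre.dich {P : Subgroup G} (h : Pre P) (hp : p ≠ 2) (hP : IsPGroup p P) {n : G}
    (hn : ∀ y ∈ P, n * y * n⁻¹ ∈ P) {x : G} (hx : x ∈ P) (hx1 : x ≠ 1)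
    (hfix : n * x * n⁻¹ = x) : ∀ y ∈ P, n * y * n⁻¹ = y := by
  intro y hy
  rcases h.fus y hy n (hn y hy) with e | e
  · exact e
  · have e2 : n * (x * y) * n⁻¹ = x * y⁻¹ := by rw [← e, ← conj_mul, hfix]
    rcases h.fus _ (mul_mem hx hy) n (hn _ (mul_mem hx hy)) with e3 | e3
    · rw [e2, mul_right_inj, inv_eq_iff_mul_eq_one] at e3
      rw [e, eq_one_of_mul_self hp hP hy e3, inv_one]
    · exfalso
      rw [e2, mul_inv_rev, ← h.comm _ (inv_mem hx) _ (inv_mem hy), mul_left_inj] at e3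
      exact hx1 (eq_one_of_mul_self hp hP hx (inv_eq_iff_mul_eq_one.1 e3.symm))

omit [Finite G] in
/-- An element normalising `P` and moving some element inverts `P`. -/
theorem Pre.inverts {P : Subgroup G} (h : Pre P) (hp : p ≠ 2) (hP : IsPGroup p P) {n : G}
    (hn : ∀ y ∈ P, n * y * n⁻¹ ∈ P) {x : G} (hx : x ∈ P) (hmove : n * x * n⁻¹ ≠ x) :
    ∀ y ∈ P, n * y * n⁻¹ = y⁻¹ := by
  intro y hy
  rcases h.fus y hy n (hn y hy) with e | e
  · by_cases hy1 : y = 1
    · simp [hy1]
    · exact absurd (h.dich hp hP hn hy hy1 e x hx) hmove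
  · exact e

omit [Finite G] in
/-- Conjugation by an element of the normaliser stays in the subgroup. -/
theorem conj_mem_of_mem_normalizer {P : Subgroup G} {n : G}
    (hn : n ∈ normalizer (P : Set G)) : ∀ y ∈ P, n * y * n⁻¹ ∈ P :=
  fun y hy => (mem_normalizer_iff.1 hn y).1 hy

/-- Centralisers of nontrivial elements have normal `p`-complements. -/
theorem Pre.cent {P : Sylow p G} (h : Pre (P : Subgroup G)) (hp : p ≠ 2) {x : G}
    (hx : x ∈ (P : Subgroup G)) (hx1 : x ≠ 1) :
    Cfsg.HasNormalPComplement p ↥(centralizer ({x} : Set G)) := by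
  have hPC : (P : Subgroup G) ≤ centralizer ({x} : Set G) := fun y hy =>
    mem_centralizer_singleton_iff.2 (h.comm y hy x hx)
  apply H22.burnside_normal_complement (P.subtype hPC)
  intro n hn
  rw [mem_centralizer_iff]
  intro y hy
  have hn' : ∀ z ∈ (P : Subgroup G), (n : G) * z * (n : G)⁻¹ ∈ (P : Subgroup G) := fun z hz =>
    (mem_normalizer_iff.1 hn ⟨z, hPC hz⟩).1 hz
  have hfix : (n : G) * x * (n : G)⁻¹ = x := by
    rw [mem_centralizer_singleton_iff.1 n.2, mul_inv_cancel_right]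
  have := h.dich hp P.2 hn' hx hx1 hfix (y : G) hy
  apply Subtype.ext
  simp only [Subgroup.coe_mul]
  exact (mul_inv_eq_iff_eq_mul.1 this).symm

/-- The setting descends to quotients. -/
theorem Pre.map {H : Type u} [Group H] [Finite H] {P : Sylow p G} (h : Pre (P : Subgroup G))
    (f : G →* H) (hf : Function.Surjective f) :
    Pre ((P.mapSurjective hf : Sylow p H) : Subgroup H) := by
  set Q := P.mapSurjective hf
  have hcomm : ∀ a ∈ (Q : Subgroup H), ∀ b ∈ (Q : Subgroup H), a * b = b * a := by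
    rintro _ ⟨a, ha, rfl⟩ _ ⟨b, hb, rfl⟩
    rw [← map_mul, h.comm a ha b hb, map_mul]
  have hQ : IsMulCommutative (Q : Subgroup H) :=
    ⟨⟨fun a b => Subtype.ext (hcomm a a.2 b b.2)⟩⟩
  refine ⟨hcomm, ?_, ?_⟩
  · obtain ⟨t, ht⟩ := h.inverter
    exact ⟨f t, by rintro _ ⟨a, ha, rfl⟩; rw [← map_inv f t, ← map_mul, ← map_mul, ht a ha,
      map_inv]⟩
  · intro x hx g hgx
    obtain ⟨m, hm, hmx⟩ := H22.abelian_sylow_controls Q hQ x hx g hgx
    rw [← hmx]
    obtain ⟨g0, rfl⟩ := hf m
    have hPX : (P : Subgroup G) ≤ (Q : Subgroup H).comap f := fun a ha =>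
      mem_comap.2 (mem_map_of_mem f ha)
    have hgX : ((g0⁻¹ • P : Sylow p G) : Subgroup G) ≤ (Q : Subgroup H).comap f := by
      intro a ha
      rw [H22.mem_smul_sylow, inv_inv] at ha
      rw [mem_comap]
      refine (mem_normalizer_iff.1 hm (f a)).2 ?_
      rw [← map_inv, ← map_mul, ← map_mul]
      exact mem_map_of_mem f ha
    obtain ⟨c, hc, hcP⟩ := H22.exists_mem_smul_eq ((Q : Subgroup H).comap f) P _ hPX hgX
    have hN := H22.normalizer_of_smul_eq hcP
    obtain ⟨x0, hx0, rfl⟩ := hx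
    have key : f g0 * f x0 * (f g0)⁻¹ = f ((g0 * c) * x0 * (g0 * c)⁻¹) := by
      simp only [map_mul, map_inv, mul_inv_rev]
      have hfc : f c * f x0 * (f c)⁻¹ = f x0 := by
        rw [hcomm _ hc _ (mem_map_of_mem f hx0), mul_inv_cancel_right]
      calc f g0 * f x0 * (f g0)⁻¹ = f g0 * (f c * f x0 * (f c)⁻¹) * (f g0)⁻¹ := by rw [hfc]
        _ = _ := by group
    rw [key]
    rcases h.fus x0 hx0 _ (conj_mem_of_mem_normalizer hN x0 hx0) with e | e <;> rw [e]
    · exact Or.inl rfl
    · exact Or.inr (map_inv f x0)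

/-- The setting passes to normal subgroups containing `P` and an inverting element. -/
theorem Pre.restrict {P : Sylow p G} (h : Pre (P : Subgroup G)) (N : Subgroup G)
    (hPN : (P : Subgroup G) ≤ N) {n : G} (hn : n ∈ N)
    (hinv : ∀ x ∈ (P : Subgroup G), n * x * n⁻¹ = x⁻¹) :
    Pre ((P.subtype hPN : Sylow p N) : Subgroup N) := by
  refine ⟨fun a ha b hb => Subtype.ext (h.comm a ha b hb),
    ⟨⟨n, hn⟩, fun x hx => Subtype.ext (hinv x hx)⟩, fun x hx g hg => ?_⟩
  rcases h.fus x hx g hg with e | e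
  · exact Or.inl (Subtype.ext e)
  · exact Or.inr (Subtype.ext e)

/-- A group with a normal `p`-complement and trivial `p'`-core is a `p`-group. -/
theorem isPGroup_of_hasNormalPComplement (h0 : Cfsg.pPrimeCore p G = ⊥)
    (h : Cfsg.HasNormalPComplement p G) : IsPGroup p G := by
  obtain ⟨P, K, hK, hc⟩ := h
  have hK1 : K = ⊥ := by
    refine le_bot_iff.1 (h0 ▸ H19.le_pPrimeCore hK ?_)
    rw [← hc.index_eq_card]
    exact ((Nat.Prime.coprime_iff_not_dvd Fact.out).2 P.not_dvd_index).symm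
  subst hK1
  rw [isComplement'_bot_left] at hc
  exact P.2.of_equiv ((MulEquiv.subgroupCongr hc).trans Subgroup.topEquiv)

omit [Fact p.Prime] in
/-- Normal subgroups inherit trivial `p'`-core. -/
theorem pPrimeCore_eq_bot (h0 : Cfsg.pPrimeCore p G = ⊥) (N : Subgroup G) [N.Normal] :
    Cfsg.pPrimeCore p N = ⊥ := by
  have h := H19.map_pPrimeCore_le (p := p) N
  rw [h0, le_bot_iff, map_eq_bot_iff_of_injective _ N.subtype_injective] at h
  exact h

/-- A nontrivial normal subgroup forces `P` normal or contains `P` and an inverting element. -/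
theorem Pre.normal_cases {P : Sylow p G} (h : Pre (P : Subgroup G)) (hp : p ≠ 2)
    (h0 : Cfsg.pPrimeCore p G = ⊥) (N : Subgroup G) [N.Normal] (hN : N ≠ ⊥) :
    (P : Subgroup G).Normal ∨ ((P : Subgroup G) ≤ N ∧
      ∃ n ∈ N, ∀ x ∈ (P : Subgroup G), n * x * n⁻¹ = x⁻¹) := by
  by_cases hpN : IsPGroup p N
  · left
    have hNP : N ≤ (P : Subgroup G) := (H19.le_pCore ‹_› hpN).trans (H19.pCore_le_sylow P)
    obtain ⟨x, hxN, hx1⟩ := (N.ne_bot_iff_exists_ne_one).1 hN |> fun ⟨x, hx⟩ =>
      (⟨(x : G), x.2, fun e => hx (Subtype.ext e)⟩ : ∃ x, x ∈ N ∧ x ≠ 1)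
    set C := centralizer (N : Set G) with hC
    have hCx : C ≤ centralizer ({x} : Set G) :=
      centralizer_le (Set.singleton_subset_iff.2 hxN)
    have hCP : (P : Subgroup G) ≤ C := fun y hy =>
      mem_centralizer_iff.2 fun z hz => (h.comm y hy z (hNP hz)).symm
    haveI : C.Normal := normal_centralizer
    have hpC : IsPGroup p C := isPGroup_of_hasNormalPComplement (pPrimeCore_eq_bot h0 C)
      (H23.hasNormalPComplement_mono hCx (h.cent hp (hNP hxN) hx1))
    rw [← P.3 hpC hCP]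
    infer_instance
  right
  set P0 : Subgroup G := (P : Subgroup G) ⊓ N with hP0
  obtain ⟨m, hmN, hmP0, x0, hx0, hmove⟩ : ∃ m ∈ N, (∀ y ∈ P0, m * y * m⁻¹ ∈ P0) ∧
      ∃ x0 ∈ P0, m * x0 * m⁻¹ ≠ x0 := by
    by_contra hcon
    push Not at hcon
    refine hpN (isPGroup_of_hasNormalPComplement (pPrimeCore_eq_bot h0 N) ?_)
    obtain ⟨Q, hQ⟩ : ∃ Q : Sylow p N, (Q : Subgroup N) = (P : Subgroup G).subgroupOf N := by
      obtain ⟨Q, hQ⟩ := (IsPGroup.comap_of_injective (K := N) P.2 N.subtype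
        N.subtype_injective).exists_le_sylow
      refine ⟨Q, le_antisymm ?_ hQ⟩
      obtain ⟨R, hR⟩ := Sylow.exists_comap_subtype_eq Q
      obtain ⟨g, hg⟩ := MulAction.exists_smul_eq G R P
      have hcard : Nat.card Q ≤ Nat.card ((P : Subgroup G).subgroupOf N) := by
        have e1 : Nat.card Q = Nat.card ↥((R : Subgroup G) ⊓ N) := by
          rw [← hR]
          exact Nat.card_congr (subgroupOfEquivOfLe (H := (R : Subgroup G) ⊓ N) (K := N)
            inf_le_right).toEquiv ▸ (by rw [inf_subgroupOf_right]; rfl)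
        have e2 : Nat.card ((P : Subgroup G).subgroupOf N) = Nat.card ↥((P : Subgroup G) ⊓ N) := by
          rw [← inf_subgroupOf_right]
          exact Nat.card_congr (subgroupOfEquivOfLe inf_le_right).toEquiv
        have e3 : ((R : Subgroup G) ⊓ N).map (MulAut.conj g).toMonoidHom
            ≤ (P : Subgroup G) ⊓ N := by
          rintro _ ⟨y, ⟨hyR, hyN⟩, rfl⟩
          refine ⟨?_, Normal.conj_mem ‹_› y hyN g⟩
          rw [← hg, Sylow.coe_subgroup_smul]
          exact smul_mem_pointwise_smul y (MulAut.conj g) (R : Subgroup G) hyR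
        have e4 := card_le_of_le e3
        rw [card_map_of_injective (MulAut.conj g).injective] at e4
        omega
      exact (eq_of_le_of_card_ge hQ hcard).ge
    apply H22.burnside_normal_complement Q
    rw [← Sylow.coe_coe, hQ]
    intro n hn
    rw [mem_centralizer_iff]
    intro y hy
    have := hcon (n : G) n.2 (fun z hz =>
      ⟨(mem_normalizer_iff.1 hn ⟨z, hz.2⟩).1 hz.1, Normal.conj_mem ‹_› z hz.2 n⟩) (y : G) ⟨hy, y.2⟩
    apply Subtype.ext
    simp only [Subgroup.coe_mul]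
    exact (mul_inv_eq_iff_eq_mul.1 this).symm
  have hx01 : x0 ≠ 1 := fun e => hmove (by simp [e])
  set M := centralizer (P0 : Set G) with hM
  have hPM : (P : Subgroup G) ≤ M := fun y hy =>
    mem_centralizer_iff.2 fun z hz => (h.comm y hy z hz.1).symm
  have hMx : M ≤ centralizer ({x0} : Set G) := centralizer_le (Set.singleton_subset_iff.2 hx0)
  have hgM : ((m⁻¹ • P : Sylow p G) : Subgroup G) ≤ M := by
    intro a ha
    rw [H22.mem_smul_sylow, inv_inv] at ha
    rw [hM, mem_centralizer_iff]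
    intro z hz
    have := h.comm _ ha _ (hmP0 z hz).1
    rw [conj_mul, conj_mul] at this
    simpa using this.symm
  obtain ⟨c, hc, hcP⟩ := H22.exists_mem_smul_eq M P _ hPM hgM
  have hN' := H22.normalizer_of_smul_eq hcP
  have hcfix : ∀ z ∈ P0, c * z * c⁻¹ = z := fun z hz => by
    rw [← mem_centralizer_iff.1 hc z hz, mul_inv_cancel_right]
  have hs : ∀ y ∈ (P : Subgroup G), (m * c) * y * (m * c)⁻¹ = y⁻¹ := by
    refine h.inverts hp P.2 (conj_mem_of_mem_normalizer hN') hx0.1 ?_
    intro e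
    apply hmove
    calc m * x0 * m⁻¹ = m * (c * x0 * c⁻¹) * m⁻¹ := by rw [hcfix x0 hx0]
      _ = (m * c) * x0 * (m * c)⁻¹ := by group
      _ = x0 := e
  have hMc : Cfsg.HasNormalPComplement p M :=
    H23.hasNormalPComplement_mono hMx (h.cent hp hx0.1 hx01)
  set K := Cfsg.pResidual p M with hK
  have hKd : ¬ p ∣ Nat.card K := H22.hasNormalPComplement_iff.1 hMc
  have hcompl := H22.isComplement'_pResidual_of_not_dvd (P.subtype hPM) hKd
  obtain ⟨⟨k, π⟩, hkπ⟩ := hcompl.2 ⟨c, hc⟩
  have hπ : ((π : M) : G) ∈ (P : Subgroup G) := π.2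
  have hcG : c = ((k : M) : G) * ((π : M) : G) := by
    simpa using (congrArg Subtype.val hkπ).symm
  set q := QuotientGroup.mk' N with hq
  have hqm : q m = 1 := (QuotientGroup.eq_one_iff m).2 hmN
  have hle : (P : Subgroup G) ≤ N := by
    intro x hx
    apply mem_of_mul_self_mem hp P.2 hx
    rw [← QuotientGroup.eq_one_iff]
    change q (x * x) = 1
    set w : M := (k : M) * ⟨x, hPM hx⟩ * (k : M)⁻¹ * ⟨x, hPM hx⟩⁻¹ with hw
    have hwK : w ∈ K := by
      have := Normal.conj_mem (inferInstance : K.Normal) _ (inv_mem k.2) ⟨x, hPM hx⟩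
      have e : w = (k : M) * (⟨x, hPM hx⟩ * (k : M)⁻¹ * ⟨x, hPM hx⟩⁻¹) := by rw [hw]; group
      rw [e]
      exact mul_mem k.2 this
    have ew : (w : G) = c * x * c⁻¹ * x⁻¹ := by
      rw [hcG, hw]
      simp only [Subgroup.coe_mul, InvMemClass.coe_inv, mul_inv_rev]
      rw [mul_assoc ((k : M) : G) ((π : M) : G) x, h.comm _ hπ x hx]
      group
    have e1 : q (w : G) = (q (x * x))⁻¹ := by
      have hxx : (m * c) * x * (m * c)⁻¹ * x⁻¹ = (x * x)⁻¹ := by rw [hs x hx, mul_inv_rev]
      rw [ew, ← map_inv, ← hxx]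
      simp only [map_mul, map_inv, hqm, one_mul, inv_one, mul_one, mul_inv_rev]
    have hd1 : orderOf (q (x * x)) ∣ Nat.card K := by
      rw [← orderOf_inv, ← e1]
      refine (orderOf_map_dvd (q.comp M.subtype) w).trans ?_
      rw [← Subgroup.orderOf_mk w hwK]
      exact orderOf_dvd_natCard _
    obtain ⟨j, hj⟩ := P.2 ⟨x * x, mul_mem hx hx⟩
    have hd2 : orderOf (q (x * x)) ∣ p ^ j := (orderOf_map_dvd q (x * x)).trans
      (orderOf_dvd_of_pow_eq_one (by simpa [Subtype.ext_iff] using hj))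
    exact orderOf_eq_one_iff.1 (Nat.eq_one_of_dvd_coprimes
      (((Nat.Prime.coprime_iff_not_dvd Fact.out).2 hKd).pow_left j) hd2 hd1)
  refine ⟨hle, m, hmN, fun x hx => ?_⟩
  calc m * x * m⁻¹ = m * (c * x * c⁻¹) * m⁻¹ := by rw [hcfix x ⟨hx, hle hx⟩]
    _ = (m * c) * x * (m * c)⁻¹ := by group
    _ = x⁻¹ := hs x hx

/-- Modulo the `p'`-core the Sylow subgroup is normal, once the simple case is excluded. -/
theorem sylow_normal (core : ∀ (H : Type u) [Group H] [Finite H] (q : ℕ),
      H39.SmithTyrer.Setup H q → False) {P : Sylow p G} (h : Pre (P : Subgroup G)) (hp : p ≠ 2)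
    (hnc : ¬ IsCyclic (P : Subgroup G)) (h0 : Cfsg.pPrimeCore p G = ⊥) :
    (P : Subgroup G).Normal := by
  by_contra hPn
  haveI : Nontrivial G := by
    by_contra hnt
    rw [not_nontrivial_iff_subsingleton] at hnt
    exact hnc inferInstance
  obtain ⟨N, ⟨hNn, hNb⟩, hmin⟩ := (wellFounded_lt (α := Subgroup G)).has_min
    {N | N.Normal ∧ N ≠ ⊥} ⟨⊤, inferInstance, top_ne_bot⟩
  haveI := hNn
  obtain ⟨hPN, n, hn, hinv⟩ := (h.normal_cases hp h0 N hNb).resolve_left hPn
  have hPre := h.restrict N hPN hn hinv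
  have h0N := pPrimeCore_eq_bot h0 N
  set PN := P.subtype hPN with hPNdef
  have hPNn : ¬ (PN : Subgroup N).Normal := by
    intro hnor
    haveI := Sylow.characteristic_of_normal PN hnor
    apply hPn
    have e : (PN : Subgroup N).map N.subtype = (P : Subgroup G) := by
      rw [hPNdef, Sylow.coe_subtype, map_subgroupOf_eq_of_le hPN]
    exact e ▸ ConjAct.normal_of_characteristic_of_normal
  have hsimp : ∀ M : Subgroup N, M.Normal → M = ⊥ ∨ M = ⊤ := by
    intro M hMn
    by_cases hMb : M = ⊥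
    · exact Or.inl hMb
    right
    haveI := hMn
    obtain ⟨hPM, -⟩ := (hPre.normal_cases hp h0N M hMb).resolve_left hPNn
    set L := M.map N.subtype with hL
    have hcl : normalClosure ((P : Subgroup G) : Set G) ≤ L := by
      rw [normalClosure, closure_le]
      intro a ha
      obtain ⟨y, hy, hya⟩ := Group.mem_conjugatesOfSet_iff.1 ha
      obtain ⟨g, rfl⟩ := isConj_iff.1 hya
      have hgN : ((g • P : Sylow p G) : Subgroup G) ≤ N := by
        intro b hb
        rw [H22.mem_smul_sylow] at hb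
        have := Normal.conj_mem hNn _ (hPN hb) g
        simpa [mul_assoc] using this
      obtain ⟨c, hc, hcP⟩ := H22.exists_mem_smul_eq N P _ hPN hgN
      have hz : g * y * g⁻¹ ∈ ((c • P : Sylow p G) : Subgroup G) := by
        rw [hcP]; exact H22.conj_mem_smul_sylow hy
      rw [H22.mem_smul_sylow] at hz
      have hz' := Normal.conj_mem hMn _ (hPM (x := ⟨_, hPN hz⟩) hz) ⟨c, hc⟩
      exact ⟨_, hz', by simp [mul_assoc]⟩
    have hne : normalClosure ((P : Subgroup G) : Set G) ≠ ⊥ := by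
      intro e
      apply hPn
      have : (P : Subgroup G) = ⊥ := le_bot_iff.1 (e ▸ subset_normalClosure)
      rw [this]; infer_instance
    have hLN : L ≤ N := map_subtype_le M
    have hNL : N ≤ L := by
      have hle := hcl.trans hLN
      rcases eq_or_lt_of_le hle with e | e
      · exact e.ge.trans hcl
      · exact absurd e (hmin _ ⟨normalClosure_normal, hne⟩)
    rw [eq_top_iff]
    intro a _
    obtain ⟨b, hb, hba⟩ := hNL a.2
    rwa [show b = a from Subtype.ext hba] at hb
  have hNt : Nontrivial N := (nontrivial_iff_ne_bot N).2 hNb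
  exact core N p
    { hp := Fact.out
      odd := hp
      P := PN
      comm := hPre.comm
      ncyc := fun hc => hnc ((subgroupOfEquivOfLe hPN).isCyclic.1 hc)
      t := ⟨n, hn⟩
      inv := fun x hx => Subtype.ext (hinv x hx)
      fus := hPre.fus
      cent := fun x hx hx1 => hPre.cent hp hx hx1
      simple := ⟨fun M hM => hsimp M hM⟩
      nonab := fun hab => hPNn ⟨fun a ha g => by
        rwa [hab.is_comm.comm g a, mul_inv_cancel_right]⟩ }

/-- The transfer step: unless `O^p(G) < G`, some element inverts `P` and fusion is inversion. -/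
theorem pre_or_pResidual_ne_top (P : Sylow p G)
    (hab : IsMulCommutative (P : Subgroup G))
    (hidx : ((centralizer ((P : Subgroup G) : Set G)).subgroupOf
      (normalizer ((P : Subgroup G) : Set G))).index = 2) :
    Cfsg.pResidual p G ≠ ⊤ ∨ Pre (P : Subgroup G) := by
  have hcomm : ∀ a ∈ (P : Subgroup G), ∀ b ∈ (P : Subgroup G), a * b = b * a := fun a ha b hb =>
    congrArg Subtype.val (hab.is_comm.comm (⟨a, ha⟩ : (P : Subgroup G)) ⟨b, hb⟩)
  set Nn := normalizer ((P : Subgroup G) : Set G) with hNn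
  set C := centralizer ((P : Subgroup G) : Set G) with hC
  obtain ⟨t, ht⟩ : ∃ t : Nn, t ∉ C.subgroupOf Nn := by
    by_contra hcon
    push Not at hcon
    rw [(eq_top_iff' _).2 hcon, index_top] at hidx
    exact absurd hidx (by norm_num)
  have hCfix : ∀ n ∈ C, ∀ x ∈ (P : Subgroup G), n * x * n⁻¹ = x := fun n hn x hx => by
    rw [← mem_centralizer_iff.1 hn x hx, mul_inv_cancel_right]
  have htt : (t : G) * t ∈ C :=
    mem_subgroupOf.1 ((mul_mem_iff_of_index_two hidx (a := t) (b := t)).2 Iff.rfl)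
  have hcase : ∀ n : Nn, (n : G) ∈ C ∨ (n : G) * t ∈ C := fun n => by
    by_cases hnC : n ∈ C.subgroupOf Nn
    · exact Or.inl hnC
    · exact Or.inr (mem_subgroupOf.1 ((mul_mem_iff_of_index_two hidx (a := n) (b := t)).2
        (iff_of_false hnC ht)))
  have htP : ∀ x ∈ (P : Subgroup G), (t : G) * x * (t : G)⁻¹ ∈ (P : Subgroup G) :=
    conj_mem_of_mem_normalizer t.2
  by_cases hfix : ∀ x ∈ (P : Subgroup G), (t : G) * x * (t : G)⁻¹ = x⁻¹
  · refine Or.inr ⟨hcomm, ⟨t, hfix⟩, fun x hx g hgx => ?_⟩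
    obtain ⟨n, hn, hnx⟩ := H22.abelian_sylow_controls P hab x hx g hgx
    rw [← hnx]
    rcases hcase ⟨n, hn⟩ with hnC | hnC
    · exact Or.inl (hCfix n hnC x hx)
    · right
      have e : (t : G)⁻¹ * x * t = x⁻¹ := by
        have h1 := hfix x⁻¹ (inv_mem hx)
        rw [inv_inv] at h1
        conv_lhs => rw [← h1]
        group
      calc n * x * n⁻¹ = (n * t) * ((t : G)⁻¹ * x * t) * (n * t)⁻¹ := by group
        _ = (n * t) * x⁻¹ * (n * t)⁻¹ := by rw [e]
        _ = x⁻¹ := hCfix _ hnC _ (inv_mem hx)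
  left
  push Not at hfix
  obtain ⟨x, hx, hxne⟩ := hfix
  set z := x * ((t : G) * x * (t : G)⁻¹) with hz
  have hzP : z ∈ (P : Subgroup G) := mul_mem hx (htP x hx)
  have hz1 : z ≠ 1 := fun e => hxne (eq_inv_of_mul_eq_one_right e)
  have hzt : (t : G) * z * (t : G)⁻¹ = z := by
    have h2 := hCfix _ htt x hx
    calc (t : G) * z * (t : G)⁻¹
        = ((t : G) * x * (t : G)⁻¹) * ((t * t) * x * (t * t : G)⁻¹) := by rw [hz]; group
      _ = z := by rw [h2, hcomm _ (htP x hx) _ hx]
  have hzN : ∀ n ∈ Nn, n * z * n⁻¹ = z := fun n hn => by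
    rcases hcase ⟨n, hn⟩ with hnC | hnC
    · exact hCfix n hnC z hzP
    · calc n * z * n⁻¹ = (n * t) * ((t : G)⁻¹ * z * t) * (n * t)⁻¹ := by group
        _ = (n * t) * z * (n * t)⁻¹ := by
          rw [show (t : G)⁻¹ * z * t = z by nth_rw 1 [← hzt]; group]
        _ = z := hCfix _ hnC z hzP
  letI : CommGroup (P : Subgroup G) :=
    { (inferInstance : Group (P : Subgroup G)) with mul_comm := hab.is_comm.comm }
  have key : ∀ (k : ℕ) (g0 : G), g0⁻¹ * z ^ k * g0 ∈ (P : Subgroup G) →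
      g0⁻¹ * z ^ k * g0 = z ^ k := by
    intro k g0 hk
    have hk' : g0⁻¹ * z ^ k * g0⁻¹⁻¹ ∈ (P : Subgroup G) := by rwa [inv_inv]
    obtain ⟨n, hn, hnx⟩ := H22.abelian_sylow_controls P hab _ (pow_mem hzP k) g0⁻¹ hk'
    rw [inv_inv] at hnx
    rw [← hnx, ← conj_pow, hzN n hn]
  set v := MonoidHom.transfer (MonoidHom.id (P : Subgroup G)) with hv
  have hvz : v z ≠ 1 := by
    rw [hv, MonoidHom.transfer_eq_pow _ z key]
    intro e
    have e' : z ^ (P : Subgroup G).index = 1 := congrArg Subtype.val e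
    obtain ⟨j, hj⟩ := P.2 ⟨z, hzP⟩
    exact hz1 (orderOf_eq_one_iff.1 (Nat.eq_one_of_dvd_coprimes
      (((Nat.Prime.coprime_iff_not_dvd Fact.out).2 P.not_dvd_index).pow_left j)
      (orderOf_dvd_of_pow_eq_one (by simpa [Subtype.ext_iff] using hj))
      (orderOf_dvd_of_pow_eq_one e')))
  intro htop
  exact hvz (H22.pResidual_le_ker v P.2 (htop ▸ mem_top z))

/-- Smith and Tyrer's theorem, given that the simple case cannot occur. -/
theorem reduction (core : ∀ (H : Type u) [Group H] [Finite H] (q : ℕ),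
      H39.SmithTyrer.Setup H q → False) {G : Type u} [Group G] [Finite G]
    (p : ℕ) [Fact p.Prime] (hp : p ≠ 2) (P : Sylow p G)
    (hab : IsMulCommutative (P : Subgroup G)) (hnc : ¬ IsCyclic (P : Subgroup G))
    (hidx : ((Subgroup.centralizer ((P : Subgroup G) : Set G)).subgroupOf
      (Subgroup.normalizer ((P : Subgroup G) : Set G))).index = 2) :
    Cfsg.pResidual p G ≠ ⊤ ∨ Cfsg.PLengthLE p 1 G := by
  rcases pre_or_pResidual_ne_top P hab hidx with h | h
  · exact Or.inl h
  right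
  haveI := H19.pPrimeCore_normal p G
  set q := QuotientGroup.mk' (Cfsg.pPrimeCore p G) with hq
  have hs : Function.Surjective q := QuotientGroup.mk'_surjective _
  set Q := P.mapSurjective hs with hQ
  have hinj : Function.Injective (q.comp (P : Subgroup G).subtype) := by
    rw [injective_iff_map_eq_one]
    intro x hx
    have hxO : (x : G) ∈ Cfsg.pPrimeCore p G := (QuotientGroup.eq_one_iff _).1 hx
    obtain ⟨j, hj⟩ := P.2 x
    exact orderOf_eq_one_iff.1 (Nat.eq_one_of_dvd_coprimes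
      ((H19.pPrimeCore_coprime (G := G) p).symm.pow_left j) (orderOf_dvd_of_pow_eq_one hj)
      (by rw [← orderOf_coe, ← Subgroup.orderOf_mk (x : G) hxO]; exact orderOf_dvd_natCard _))
  have hQnc : ¬ IsCyclic (Q : Subgroup (G ⧸ Cfsg.pPrimeCore p G)) := by
    intro hc
    refine hnc ?_
    have e : (q.comp (P : Subgroup G).subtype).range = (Q : Subgroup (G ⧸ Cfsg.pPrimeCore p G)) := by
      rw [MonoidHom.range_comp, range_subtype]; rfl
    exact ((MonoidHom.ofInjective hinj).trans (MulEquiv.subgroupCongr e)).isCyclic.2 hc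
  have hQn := sylow_normal core (h.map q hs) hp hQnc (H19.pPrimeCore_quotient_pPrimeCore p)
  rw [H53.pLengthLE_one_iff]
  refine Nat.Coprime.coprime_dvd_left (Subgroup.index_dvd_of_le ?_)
    ((Nat.Prime.coprime_iff_not_dvd Fact.out).2 P.not_dvd_index).symm
  intro x hx
  exact H19.le_pCore (N := (Q : Subgroup (G ⧸ Cfsg.pPrimeCore p G))) hQn Q.2 (mem_map_of_mem q hx)

end Cfsg.Agent.H40.SmithTyrer
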